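import Mathlib
import Cfsg.Agent.ClassicalGeometry.OrthDickson
import Cfsg.Agent.H177.InvolGroup
set_option linter.all false

/-!
# `Ω` in characteristic two is the kernel of the Dickson sign

`mem_commutator_iff_good`: unless `|F| = 2`, `n = 4`; `mem_commutator_iff_index_one`: also if there is
no totally singular plane (so for `O⁻_4(2)`).
-/

set_option autoImplicit false
set_option linter.unusedSectionVars false

namespace Cfsg.Agent.H177.OmegaSign

open QuadraticMap Matrix Module
open Cfsg.Agent.ClassicalGeometry.Reflection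
open Cfsg.Agent.ClassicalGeometry.OrthCharTwo
open Cfsg.Agent.ClassicalGeometry.OrthDickson

variable {ι : Type} [Fintype ι] [DecidableEq ι] {F : Type*} [Field F]
variable (Q : QuadraticForm F (ι → F))

/-- generation by reflections, as an induction principle -/
def Gen : Prop := ∀ p : Cfsg.isometryGroup F (⇑Q) → Prop, p 1 →
  (∀ (v : ι → F) (hv : Q v ≠ 0) (g : Cfsg.isometryGroup F (⇑Q)), p g → p (reflIso Q v hv * g)) →
  ∀ g, p g

/-- all products of two reflections lie in the commutator subgroup -/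
def ReflPairs : Prop := ∀ (u v : ι → F) (hu : Q u ≠ 0) (hv : Q v ≠ 0),
  reflIso Q u hu * reflIso Q v hv ∈ commutator (Cfsg.isometryGroup F (⇑Q))

theorem dsign_mul_of_Gen (hQ : (polarBilin Q).Nondegenerate) (hG : Gen Q)
    (g g' : Cfsg.isometryGroup F (⇑Q)) : dsign Q (g * g') = dsign Q g * dsign Q g' := by
  revert g'
  refine hG (fun g => ∀ g', dsign Q (g * g') = dsign Q g * dsign Q g') ?_ ?_ g
  · intro g'
    rw [one_mul, dsign_one, one_mul]
  · intro v hv g hg g'
    rw [mul_assoc, dsign_refl_mul Q hQ, dsign_refl_mul Q hQ, hg, neg_mul]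

theorem mem_commutator_iff (hQ : (polarBilin Q).Nondegenerate) (hG : Gen Q) (hR : ReflPairs Q)
    (g : Cfsg.isometryGroup F (⇑Q)) :
    g ∈ commutator (Cfsg.isometryGroup F (⇑Q)) ↔ dsign Q g = 1 := by
  constructor
  · intro hg
    let φ : Cfsg.isometryGroup F (⇑Q) →* ℤˣ :=
      { toFun := dsign Q
        map_one' := dsign_one Q
        map_mul' := dsign_mul_of_Gen Q hQ hG }
    have h1 : g ∈ φ.ker := Abelianization.commutator_subset_ker φ hg
    exact MonoidHom.mem_ker.1 h1
  · have key : ∀ g : Cfsg.isometryGroup F (⇑Q),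
        (dsign Q g = 1 → g ∈ commutator (Cfsg.isometryGroup F (⇑Q))) ∧
        (dsign Q g = -1 → ∀ (v : ι → F) (hv : Q v ≠ 0),
          reflIso Q v hv * g ∈ commutator (Cfsg.isometryGroup F (⇑Q))) := by
      refine hG _ ⟨fun _ => Subgroup.one_mem _, fun h => ?_⟩ ?_
      · rw [dsign_one] at h
        exact absurd h (by decide)
      · intro v hv g hg
        rw [dsign_refl_mul Q hQ]
        refine ⟨fun h => hg.2 (neg_eq_iff_eq_neg.1 h) v hv, fun h u hu => ?_⟩
        rw [← mul_assoc]
        exact Subgroup.mul_mem _ (hR u v hu hv) (hg.1 (neg_injective h))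
    exact (key g).1

theorem gen_of_good (hQ : (polarBilin Q).Nondegenerate)
    (h : (∃ θ : F, θ ≠ 0 ∧ θ ≠ 1) ∨ Fintype.card ι ≠ 4) : Gen Q :=
  fun p h1 hmul g => isometry_induction Q hQ h p h1 hmul g

/-- **`Ω` is the kernel of the Dickson sign** (`|F| ≠ 2` or `n ≠ 4`). -/
theorem mem_commutator_iff_good [Finite F] [CharP F 2] (hQ : (polarBilin Q).Nondegenerate)
    (h : (∃ θ : F, θ ≠ 0 ∧ θ ≠ 1) ∨ Fintype.card ι ≠ 4) (g : Cfsg.isometryGroup F (⇑Q)) :
    g ∈ commutator (Cfsg.isometryGroup F (⇑Q)) ↔ dsign Q g = 1 :=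
  mem_commutator_iff Q hQ (gen_of_good Q hQ h)
    (fun u v hu hv => refl_mul_refl_mem_two Q CharTwo.two_eq_zero hQ h u v hu hv) g

/-- there is no totally singular plane -/
def IndexOne : Prop := ∀ a b : ι → F, Q a = 0 → Q b = 0 → polar Q a b = 0 →
  ∃ s t : F, s • a + t • b = 0 ∧ ¬ (s = 0 ∧ t = 0)

theorem gen_of_index_one (hQ : (polarBilin Q).Nondegenerate) (h : IndexOne Q) : Gen Q := by
  intro p h1 hmul g
  refine isometry_induction_siegel Q hQ p h1 hmul ?_ g
  intro a b c ha hb hab g hg
  have hone : siegelIso Q a b c ha hb hab = 1 := by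
    obtain ⟨s, t, hst, hne⟩ := h a b ha hb hab
    apply act_ext
    intro z
    rw [act_siegel, act_one]
    by_cases ht : t = 0
    · have hs : s ≠ 0 := fun hs => hne ⟨hs, ht⟩
      rw [ht, zero_smul, add_zero] at hst
      have ha0 : a = 0 := (smul_eq_zero.1 hst).resolve_left hs
      rw [ha0]
      simp
    · have hb' : b = (-(t⁻¹ * s)) • a := by
        have h3 : t • b = - (s • a) := by
          rw [eq_neg_iff_add_eq_zero, add_comm]; exact hst
        rw [← one_smul F b, ← inv_mul_cancel₀ ht, mul_smul, h3, neg_smul, smul_neg, smul_smul]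
      rw [hb', polar_smul_left, smul_smul, smul_eq_mul, mul_comm, sub_self, smul_zero, add_zero]
  rw [hone, one_mul]
  exact hg

theorem reflPairs_of_index_one [Finite F] [CharP F 2] (hQ : (polarBilin Q).Nondegenerate)
    (h : IndexOne Q) : ReflPairs Q := by
  have h2 : (2 : F) = 0 := CharTwo.two_eq_zero
  intro u v hu hv
  by_cases huv : polar Q u v ≠ 0
  · exact refl_mul_refl_mem_of_polar Q h2 u v hu hv huv
  push Not at huv
  have hself : ∀ x, polar Q x x = 0 := by
    intro x
    rw [polar_self', h2, zero_mul]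
  -- scale `v` so that `Q v = Q u`
  obtain ⟨c, hc⟩ := exists_sq_of_two h2 (Q u * (Q v)⁻¹)
  have hc0 : c ≠ 0 := by
    rintro rfl
    rw [mul_zero] at hc
    exact mul_ne_zero hu (inv_ne_zero hv) hc.symm
  have hcv : Q (c • v) = Q u := by
    rw [QuadraticMap.map_smul, hc, smul_eq_mul, mul_assoc, inv_mul_cancel₀ hv, mul_one]
  have hcv0 : Q (c • v) ≠ 0 := by rw [hcv]; exact hu
  rw [← refl_smul Q v hv c hc0 hcv0]
  have huw : polar Q u (c • v) = 0 := by rw [polar_smul_right, huv, smul_zero]
  generalize c • v = w at *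
  by_cases hli : ∀ s t : F, s • u + t • w = 0 → s = 0 ∧ t = 0
  · obtain ⟨w1, hw1, hw1'⟩ := exists_dual_pair Q hQ hli
    obtain ⟨w2, hw2, hw2'⟩ := exists_dual_pair Q hQ (a := w) (b := u) (by
      intro s t hst
      rw [add_comm] at hst
      exact (hli t s hst).symm)
    set z0 := w1 + w2 with hz0
    have hz1 : polar Q u z0 = 1 := by rw [hz0, polar_add_right, hw1, hw2', zero_add]
    have hz2 : polar Q w z0 = 1 := by rw [hz0, polar_add_right, hw1', hw2, add_zero]
    have hz : Q z0 ≠ 0 := by
      intro hz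
      obtain ⟨s, t, hst, hne⟩ := h (u + w) z0 (by
        rw [map_add', huw, add_zero, hcv, ← two_mul, h2, zero_mul]) hz (by
        rw [polar_add_left, hz1, hz2]
        linear_combination h2)
      have h3 : polar Q u (s • (u + w) + t • z0) = 0 := by rw [hst, polar_zero_right]
      rw [polar_add_right, polar_smul_right, polar_add_right, hself, huw, add_zero, smul_zero,
        zero_add, polar_smul_right, hz1, smul_eq_mul, mul_one] at h3
      rw [h3, zero_smul, add_zero, smul_add] at hst
      exact hne ⟨(hli s s hst).1, h3⟩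
    have h3 := refl_mul_refl_mem_of_polar Q h2 u z0 hu hz (by rw [hz1]; exact one_ne_zero)
    have h4 := refl_mul_refl_mem_of_polar Q h2 z0 w hz hcv0
      (by rw [polar_comm, hz2]; exact one_ne_zero)
    have h5 := Subgroup.mul_mem _ h3 h4
    rwa [mul_assoc, ← mul_assoc (reflIso Q z0 hz), reflIso_mul_self, one_mul] at h5
  · -- `w` is a multiple of `u`
    push Not at hli
    obtain ⟨s, t, hst, hne⟩ := hli
    have hu0 : u ≠ 0 := by rintro rfl; exact hu (QuadraticMap.map_zero Q)
    have hw0 : w ≠ 0 := by rintro rfl; exact hcv0 (QuadraticMap.map_zero Q)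
    have ht : t ≠ 0 := by
      rintro rfl
      rw [zero_smul, add_zero, smul_eq_zero] at hst
      rcases hst with h0 | h0
      · exact hne h0 rfl
      · exact hu0 h0
    have hs : s ≠ 0 := by
      rintro rfl
      rw [zero_smul, zero_add, smul_eq_zero] at hst
      rcases hst with h0 | h0
      · exact ht h0
      · exact hw0 h0
    have hvu : (-(t⁻¹ * s)) • u = w := by
      have h3 : t • w = - (s • u) := by
        rw [eq_neg_iff_add_eq_zero, add_comm]; exact hst
      rw [neg_smul, mul_smul, ← smul_neg, ← h3, smul_smul, inv_mul_cancel₀ ht, one_smul]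
    have hc : (-(t⁻¹ * s)) ≠ 0 := neg_ne_zero.2 (mul_ne_zero (inv_ne_zero ht) hs)
    subst hvu
    rw [refl_smul Q u hu _ hc hcv0, reflIso_mul_self]
    exact Subgroup.one_mem _

/-- **`Ω` is the kernel of the Dickson sign**, if there is no totally singular plane. -/
theorem mem_commutator_iff_index_one [Finite F] [CharP F 2] (hQ : (polarBilin Q).Nondegenerate)
    (h : IndexOne Q) (g : Cfsg.isometryGroup F (⇑Q)) :
    g ∈ commutator (Cfsg.isometryGroup F (⇑Q)) ↔ dsign Q g = 1 :=
  mem_commutator_iff Q hQ (gen_of_index_one Q hQ h) (reflPairs_of_index_one Q hQ h) g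

end Cfsg.Agent.H177.OmegaSign
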